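import Mathlib
import Cfsg.Agent.Lib.Helper42.BlkDefs

/-!
Toolbox for the ladder "BLK": the subgroup `C1 = {c | InC1 N x c}` and the homomorphism
property of `ps x` on it.
-/

set_option autoImplicit false

namespace Cfsg.Agent.Lib.Helper76.Blk

open Cfsg.Agent.Lib.Helper42.Blk

variable {G : Type*} [Group G] {N : Subgroup G} {x : G}

theorem ps_one : ps x (1 : G) = 1 := by simp [ps]

theorem ps_mul_gen (c c' : G) : ps x (c * c') = c'⁻¹ * ps x c * c' * ps x c' := by
  unfold ps; group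

theorem ps_mul {c c' : G} (hc : InC1 N x c) (hc' : InC1 N x c') :
    ps x (c * c') = ps x c * ps x c' := by
  rw [ps_mul_gen]
  have h := (Subgroup.mem_centralizer_iff.mp hc'.1) (ps x c) hc.2
  -- h : ps x c * c' = c' * ps x c
  rw [mul_assoc c'⁻¹, h]; group

theorem conj_eq (c : G) : x⁻¹ * c * x = c * ps x c := by unfold ps; group

theorem ps_eq_one_iff (c : G) : ps x c = 1 ↔ c * x = x * c := by
  unfold ps
  constructor
  · intro h
    have : c * x = x * c * (c⁻¹ * x⁻¹ * c * x) := by group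
    rw [this, h, mul_one]
  · intro h
    have : c⁻¹ * x⁻¹ * c * x = c⁻¹ * x⁻¹ * (c * x) := by group
    rw [this, h]; group

theorem inC1_one : InC1 N x (1 : G) := ⟨one_mem _, by rw [ps_one]; exact one_mem _⟩

theorem inC1_mul {c c' : G} (hc : InC1 N x c) (hc' : InC1 N x c') : InC1 N x (c * c') :=
  ⟨mul_mem hc.1 hc'.1, by rw [ps_mul hc hc']; exact mul_mem hc.2 hc'.2⟩

theorem ps_inv_gen (c : G) : ps x c⁻¹ = c * (ps x c)⁻¹ * c⁻¹ := by unfold ps; group

theorem ps_inv {c : G} (hc : InC1 N x c) : ps x c⁻¹ = (ps x c)⁻¹ := by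
  rw [ps_inv_gen]
  have h := (Subgroup.mem_centralizer_iff.mp hc.1) (ps x c)⁻¹ (inv_mem hc.2)
  rw [← h]; group

theorem inC1_inv {c : G} (hc : InC1 N x c) : InC1 N x c⁻¹ :=
  ⟨inv_mem hc.1, by rw [ps_inv hc]; exact inv_mem hc.2⟩

/-- the subgroup `C1` -/
def C1 (N : Subgroup G) (x : G) : Subgroup G where
  carrier := {c | InC1 N x c}
  one_mem' := inC1_one
  mul_mem' := inC1_mul
  inv_mem' := inC1_inv

theorem mem_C1 {c : G} : c ∈ C1 N x ↔ InC1 N x c := Iff.rfl

/-- `ps x` as a homomorphism `C1 →* G` -/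
def psHom (N : Subgroup G) (x : G) : C1 N x →* G where
  toFun c := ps x (c : G)
  map_one' := ps_one
  map_mul' a b := ps_mul a.2 b.2

theorem psHom_apply (c : C1 N x) : psHom N x c = ps x (c : G) := rfl

theorem inC1_pow {c : G} (hc : InC1 N x c) (k : ℕ) : InC1 N x (c ^ k) :=
  (C1 N x).pow_mem hc k

theorem inC1_zpow {c : G} (hc : InC1 N x c) (k : ℤ) : InC1 N x (c ^ k) :=
  (C1 N x).zpow_mem hc k

theorem ps_pow {c : G} (hc : InC1 N x c) (k : ℕ) : ps x (c ^ k) = ps x c ^ k := by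
  have := map_pow (psHom N x) ⟨c, hc⟩ k
  simpa [psHom_apply] using this

theorem ps_zpow {c : G} (hc : InC1 N x c) (k : ℤ) : ps x (c ^ k) = ps x c ^ k := by
  have := map_zpow (psHom N x) ⟨c, hc⟩ k
  simpa [psHom_apply] using this

theorem inC1_of_mem {p : ℕ} (F : Frame p N x) {v : G} (hv : v ∈ N) : InC1 N x v := by
  have := F.normal
  refine ⟨Subgroup.mem_centralizer_iff.mpr fun a ha => F.comm a ha v hv, ?_⟩
  have h1 : x⁻¹ * v * x⁻¹⁻¹ ∈ N := F.normal.conj_mem v hv x⁻¹
  have : ps x v = v⁻¹ * (x⁻¹ * v * x⁻¹⁻¹) := by unfold ps; group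
  rw [this]; exact mul_mem (inv_mem hv) h1

theorem centralizer_normal {p : ℕ} (F : Frame p N x) :
    (Subgroup.centralizer (N : Set G)).Normal := by
  have := F.normal
  infer_instance

/-- `x` normalizes `C1` -/
theorem inC1_conj {p : ℕ} (F : Frame p N x) {c : G} (hc : InC1 N x c) :
    InC1 N x (x * c * x⁻¹) := by
  refine ⟨(centralizer_normal F).conj_mem c hc.1 x, ?_⟩
  have : ps x (x * c * x⁻¹) = x * ps x c * x⁻¹ := by unfold ps; group
  rw [this]; exact F.normal.conj_mem _ hc.2 x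

theorem inC1_conj' {p : ℕ} (F : Frame p N x) {c : G} (hc : InC1 N x c) :
    InC1 N x (x⁻¹ * c * x) := by
  rw [conj_eq]; exact inC1_mul hc (inC1_of_mem F hc.2)

theorem x_mem_normalizer {p : ℕ} (F : Frame p N x) : x ∈ Subgroup.normalizer (C1 N x : Set G) := by
  rw [Subgroup.mem_normalizer_iff]
  intro c
  constructor
  · intro hc; exact inC1_conj F hc
  · intro hc
    have := inC1_conj' F hc
    have h2 : x⁻¹ * (x * c * x⁻¹) * x = c := by group
    rwa [h2] at this

theorem inC1_zpow_x {i : ℤ} (h : x ^ i ∈ Subgroup.centralizer (N : Set G)) : InC1 N x (x ^ i) := by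
  refine ⟨h, ?_⟩
  have : ps x (x ^ i) = 1 := by
    rw [ps_eq_one_iff]
    exact ((Commute.refl x).zpow_left i).eq
  rw [this]; exact one_mem _

end Cfsg.Agent.Lib.Helper76.Blk
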