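import Mathlib
import Cfsg.Agent.Lib.Helper42.BlkDefs
import Cfsg.Agent.Lib.Helper76.BlkC1

/-! Ladder "BLK", rung B3. -/

set_option autoImplicit false

namespace Cfsg.Agent.Lib.Helper76.Blk

open Cfsg.Agent.Lib.Helper42.Blk

theorem inC1_zconj {G : Type*} [Group G] {p : ℕ} {N : Subgroup G} {x : G} (F : Frame p N x)
    {c : G} (hc : InC1 N x c) (j : ℤ) : InC1 N x (x ^ j * c * (x ^ j)⁻¹) := by
  have h : x ^ j ∈ Subgroup.normalizer (C1 N x : Set G) :=
    Subgroup.zpow_mem _ (x_mem_normalizer F) j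
  exact (Subgroup.mem_normalizer_iff.mp h c).mp hc

/-- the subgroup `⟨x⟩ C1` -/
def KK {G : Type*} [Group G] {p : ℕ} {N : Subgroup G} {x : G} (F : Frame p N x) : Subgroup G where
  carrier := {g | ∃ i : ℤ, ∃ c, InC1 N x c ∧ g = x ^ i * c}
  one_mem' := ⟨0, 1, inC1_one, by simp⟩
  mul_mem' := by
    rintro _ _ ⟨i, c, hc, rfl⟩ ⟨j, c', hc', rfl⟩
    refine ⟨i + j, (x ^ (-j) * c * (x ^ (-j))⁻¹) * c', inC1_mul (inC1_zconj F hc _) hc', ?_⟩
    rw [zpow_add, zpow_neg]; group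
  inv_mem' := by
    rintro _ ⟨i, c, hc, rfl⟩
    refine ⟨-i, x ^ i * c⁻¹ * (x ^ i)⁻¹, inC1_zconj F (inC1_inv hc) _, ?_⟩
    rw [zpow_neg]; group

/-- RUNG B3 -/
theorem normalizer_step {G : Type*} [Group G] [Finite G] {p : ℕ} [Fact p.Prime]
    {N : Subgroup G} {x : G} (F : Frame p N x)
    (hΩ : ∀ w, InC1 N x w → (x * w) ^ p = 1 → w ∈ N) :
    ∀ c ∈ Subgroup.centralizer (N : Set G), ps x c ∈ N := by
  have hCn := centralizer_normal F
  -- `K ∩ C = C1`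
  have hKC : ∀ g ∈ KK F, g ∈ Subgroup.centralizer (N : Set G) → InC1 N x g := by
    rintro _ ⟨i, c, hc, rfl⟩ hg
    have h1 : x ^ i ∈ Subgroup.centralizer (N : Set G) := by
      have : x ^ i = (x ^ i * c) * c⁻¹ := by group
      rw [this]; exact mul_mem hg (inv_mem hc.1)
    exact inC1_mul (inC1_zpow_x h1) hc
  have hxK : x ∈ KK F := ⟨1, 1, inC1_one, by simp⟩
  have hC1K : ∀ c, InC1 N x c → c ∈ KK F := fun c hc => ⟨0, c, hc, by simp⟩
  have hKtop : KK F = ⊤ := by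
    by_contra hne
    have : Group.IsNilpotent G := F.pgroup.isNilpotent
    have hlt : KK F < Subgroup.normalizer (KK F : Set G) :=
      Group.normalizerCondition_of_isNilpotent (KK F) (lt_top_iff_ne_top.mpr hne)
    obtain ⟨g, hgN, hgK⟩ := SetLike.exists_of_lt hlt
    obtain ⟨i, c', hc'C, rfl⟩ := F.decomp g
    have hxiK : x ^ i ∈ KK F := (KK F).pow_mem hxK i
    have hc'N : c' ∈ Subgroup.normalizer (KK F : Set G) := by
      have : c' = (x ^ i)⁻¹ * (x ^ i * c') := by group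
      rw [this]
      exact mul_mem (inv_mem (Subgroup.le_normalizer hxiK)) hgN
    have hc'K : c' ∉ KK F := fun h => hgK (mul_mem hxiK h)
    have hconj : c'⁻¹ * x * c'⁻¹⁻¹ ∈ KK F :=
      (Subgroup.mem_normalizer_iff.mp (inv_mem hc'N) x).mp hxK
    set c'' := x⁻¹ * c'⁻¹ * x * c' with hc''
    have hc''C : c'' ∈ Subgroup.centralizer (N : Set G) := by
      have h1 : x⁻¹ * c'⁻¹ * x⁻¹⁻¹ ∈ Subgroup.centralizer (N : Set G) :=
        hCn.conj_mem _ (inv_mem hc'C) x⁻¹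
      have : c'' = (x⁻¹ * c'⁻¹ * x⁻¹⁻¹) * c' := by rw [hc'']; group
      rw [this]; exact mul_mem h1 hc'C
    have hxc'' : x * c'' = c'⁻¹ * x * c'⁻¹⁻¹ := by rw [hc'']; group
    have hc''K : c'' ∈ KK F := by
      have : c'' = x⁻¹ * (c'⁻¹ * x * c'⁻¹⁻¹) := by rw [← hxc'']; group
      rw [this]; exact mul_mem (inv_mem hxK) hconj
    have hc''1 : InC1 N x c'' := hKC _ hc''K hc''C
    have hpow : (x * c'') ^ p = 1 := by
      rw [hxc'', conj_pow, F.xp]; group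
    have hc''N : c'' ∈ N := hΩ _ hc''1 hpow
    have hps : ps x c' = c''⁻¹ := by rw [hc'']; unfold ps; group
    exact hc'K (hC1K c' ⟨hc'C, by rw [hps]; exact inv_mem hc''N⟩)
  intro c hc
  exact (hKC c (by rw [hKtop]; trivial) hc).2

end Cfsg.Agent.Lib.Helper76.Blk
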