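import Mathlib
import Cfsg.Agent.Lib.Helper42.BlkDefs
import Cfsg.Agent.Lib.Helper76.BlkC1
import Cfsg.Agent.Lib.Helper70.Kulakoff

/-! Ladder "BLK", rung B4. -/

set_option autoImplicit false

namespace Cfsg.Agent.Lib.Helper76.Blk

open Cfsg.Agent.Lib.Helper42.Blk

/-- RUNG B4 -/
theorem caseI_omega {G : Type*} [Group G] [Finite G] {p : ℕ} [Fact p.Prime]
    {N : Subgroup G} {x z₀ : G} (F : Frame p N x) (Z : ZData N x z₀)
    (hI : ∀ c, InC1 N x c → ps x c ∈ Subgroup.zpowers z₀) :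
    ∀ w, InC1 N x w → (x * w) ^ p = 1 → w ∈ N := by
  intro w hw hxw
  have hNn := F.normal
  obtain ⟨k, hk⟩ := hI w hw
  obtain ⟨v₀, hv₀, hv₀z⟩ := Z.surj
  have hv₀C := inC1_of_mem F hv₀
  set v := v₀ ^ k with hv
  have hvN : v ∈ N := N.zpow_mem hv₀ k
  have hvC := inC1_of_mem F hvN
  have hpsv : ps x v = ps x w := by
    rw [hv, ps_zpow hv₀C, hv₀z]; exact hk
  set d := w * v⁻¹ with hd
  have hdC : InC1 N x d := inC1_mul hw (inC1_inv hvC)
  have hpsd : ps x d = 1 := by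
    rw [hd, ps_mul hw (inC1_inv hvC), ps_inv hvC, hpsv, mul_inv_cancel]
  have hcomm : d * x = x * d := (ps_eq_one_iff d).mp hpsd
  have hw' : x * w = (x * d) * v := by rw [hd]; group
  have h1 : (x * w) ^ p = (x * d) ^ p := by
    rw [hw']
    exact Cfsg.Agent.Lib.Helper70.mul_pow_prime_of_normal_card_sq F.odd F.pgroup N F.card F.exp
      v hvN (x * d)
  have h2 : (x * d) ^ p = d ^ p := by
    have hc : Commute x d := hcomm.symm
    rw [hc.mul_pow, F.xp, one_mul]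
  have hdp : d ^ p = 1 := by rw [← h2, ← h1, hxw]
  have hdN : d ∈ N := F.omega d hdC.1 hdp
  have : w = d * v := by rw [hd]; group
  rw [this]; exact mul_mem hdN hvN

end Cfsg.Agent.Lib.Helper76.Blk
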