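import Mathlib
import Cfsg.Agent.Lib.Helper42.BlkDefs
import Cfsg.Agent.Lib.Helper76.BlkC1
import Cfsg.Agent.Lib.Helper59.UniqueOdd
import Cfsg.Agent.Lib.Helper3.Metacyclic

/-! Ladder "BLK", rung B6. -/

set_option autoImplicit false

namespace Cfsg.Agent.Lib.Helper76.Blk

open Cfsg.Agent.Lib.Helper42.Blk Subgroup

theorem mem_zpowers_of_mem_of_prime {G : Type*} [Group G] {p : ℕ} [Fact p.Prime] {y u : G}
    (hy : orderOf y = p) (hu : u ∈ zpowers y) (hu1 : u ≠ 1) : y ∈ zpowers u := by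
  have hcard : Nat.card (zpowers y) = p := by rw [Nat.card_zpowers, hy]
  have h := mem_zpowers_of_prime_card hcard (g := (⟨u, hu⟩ : zpowers y))
    (g' := ⟨y, mem_zpowers y⟩) (by simpa [Subtype.ext_iff] using hu1)
  obtain ⟨k, hk⟩ := h
  exact ⟨k, by simpa using congrArg Subtype.val hk⟩

theorem eq_one_of_mem_zpowers_both {G : Type*} [Group G] {p : ℕ} [Fact p.Prime] {y z u : G}
    (hy : orderOf y = p) (hyz : y ∉ zpowers z) (hu : u ∈ zpowers y) (hu' : u ∈ zpowers z) :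
    u = 1 := by
  by_contra hu1
  have h := mem_zpowers_of_mem_of_prime hy hu hu1
  exact hyz ((zpowers_le.mpr hu') h)

theorem zpow_eq_pow {G : Type*} [Group G] [Finite G] (g : G) (k : ℤ) : ∃ a : ℕ, g ^ k = g ^ a := by
  have h : g ^ k ∈ Submonoid.powers g := mem_powers_iff_mem_zpowers.mpr ⟨k, rfl⟩
  obtain ⟨a, ha⟩ := h
  exact ⟨a, ha.symm⟩

/-- `N = ⟨y⟩ ⟨z₀⟩` -/
theorem mem_N_decomp {G : Type*} [Group G] [Finite G] {p : ℕ} [Fact p.Prime]
    {N : Subgroup G} {x z₀ : G} (F : Frame p N x) (Z : ZData N x z₀) {y : G} (hy : y ∈ N)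
    (hyz : y ∉ zpowers z₀) : ∀ v ∈ N, ∃ i j : ℤ, v = y ^ i * z₀ ^ j := by
  have hzo : orderOf z₀ = p := orderOf_eq_prime (F.exp z₀ Z.memN) Z.ne
  have hn : (zpowers z₀).Normal := by
    constructor
    rintro _ ⟨k, rfl⟩ g
    have h1 : z₀ ^ k ∈ center G := (center G).zpow_mem Z.central k
    have h2 := (mem_center_iff.mp h1) g
    refine ⟨k, ?_⟩
    show z₀ ^ k = g * z₀ ^ k * g⁻¹
    rw [h2]; group
  have hle : zpowers y ⊔ zpowers z₀ ≤ N := sup_le (zpowers_le.mpr hy) (zpowers_le.mpr Z.memN)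
  have hlt : zpowers z₀ < zpowers y ⊔ zpowers z₀ := by
    refine lt_of_le_of_ne le_sup_right ?_
    intro h
    apply hyz
    rw [h]
    exact (le_sup_left : zpowers y ≤ _) (mem_zpowers y)
  have hc := Cfsg.Agent.Lib.Helper3.card_mul_le_of_lt F.pgroup hlt
  rw [Nat.card_zpowers, hzo] at hc
  have heq : zpowers y ⊔ zpowers z₀ = N := by
    apply eq_of_le_of_card_ge hle
    rw [F.card, pow_two]; exact hc
  intro v hv
  rw [← heq, mem_sup_of_normal_right] at hv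
  obtain ⟨_, ⟨i, rfl⟩, _, ⟨j, rfl⟩, h⟩ := hv
  exact ⟨i, j, h.symm⟩

/-- the subgroup `{w ∈ C1 | ps x w ∈ ⟨y⟩}` -/
def K2 {G : Type*} [Group G] (N : Subgroup G) (x y : G) : Subgroup G where
  carrier := {w | InC1 N x w ∧ ps x w ∈ zpowers y}
  one_mem' := ⟨inC1_one, by rw [ps_one]; exact one_mem _⟩
  mul_mem' := fun ha hb => ⟨inC1_mul ha.1 hb.1, by rw [ps_mul ha.1 hb.1]; exact mul_mem ha.2 hb.2⟩
  inv_mem' := fun ha => ⟨inC1_inv ha.1, by rw [ps_inv ha.1]; exact inv_mem ha.2⟩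

/-- RUNG B6 -/
theorem caseII_struct {G : Type*} [Group G] [Finite G] {p : ℕ} [Fact p.Prime]
    {N : Subgroup G} {x z₀ : G} (F : Frame p N x) (Z : ZData N x z₀) (c : G)
    (hc : InC1 N x c) (hcz : ps x c ∉ Subgroup.zpowers z₀) :
    ∀ w, InC1 N x w → ∃ a b : ℕ, w = c ^ a * (ps x c) ^ b := by
  have hp : p.Prime := Fact.out
  set y := ps x c with hy
  have hyN : y ∈ N := hc.2
  have hyC : InC1 N x y := inC1_of_mem F hyN
  have hy1 : y ≠ 1 := fun h => hcz (h ▸ one_mem _)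
  have hyo : orderOf y = p := orderOf_eq_prime (F.exp y hyN) hy1
  have hzo : orderOf z₀ = p := orderOf_eq_prime (F.exp z₀ Z.memN) Z.ne
  -- elements of order `p` of `K2`
  have hord : ∀ a ∈ K2 N x y, a ^ p = 1 → a ∈ zpowers z₀ := by
    intro a ha hap
    have haN : a ∈ N := F.omega a ha.1.1 hap
    exact Z.fix a haN (eq_one_of_mem_zpowers_both hyo hcz ha.2 (Z.comm_mem a haN))
  have hcyc : IsCyclic (K2 N x y) := by
    apply Cfsg.Agent.Lib.Helper59.isCyclic_of_unique_odd F.odd (F.pgroup.to_subgroup _)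
    intro a b ha hb
    have ha1 : (a : G) ≠ 1 := by
      intro h
      have : a = 1 := Subtype.ext h
      rw [this, orderOf_one] at ha
      exact hp.one_lt.ne ha
    have hap : (a : G) ^ p = 1 := by
      have := pow_orderOf_eq_one a
      rw [ha] at this
      simpa using congrArg Subtype.val this
    have hbp : (b : G) ^ p = 1 := by
      have := pow_orderOf_eq_one b
      rw [hb] at this
      simpa using congrArg Subtype.val this
    have h1 := hord a a.2 hap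
    have h2 := hord b b.2 hbp
    have h3 : z₀ ∈ zpowers (a : G) := mem_zpowers_of_mem_of_prime hzo h1 ha1
    obtain ⟨k, hk⟩ := (zpowers_le.mpr h3) h2
    exact ⟨k, Subtype.ext (by simpa using hk)⟩
  obtain ⟨k, hk⟩ := hcyc.exists_generator
  have hcK : c ∈ K2 N x y := ⟨hc, mem_zpowers y⟩
  -- `K2 = ⟨c⟩`
  have hKc : ∀ w ∈ K2 N x y, w ∈ zpowers c := by
    have h1 : (⟨c, hcK⟩ : K2 N x y) ∈ Submonoid.powers k := mem_powers_iff_mem_zpowers.mpr (hk _)
    obtain ⟨j, hj⟩ := h1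
    have hj' : (k : G) ^ j = c := by simpa using congrArg Subtype.val hj
    have hpj : ¬ p ∣ j := by
      rintro ⟨m, rfl⟩
      apply hy1
      rw [hy, ← hj', ps_pow k.2.1, pow_mul, F.exp _ k.2.1.2, one_pow]
    obtain ⟨t, ht⟩ := (IsPGroup.iff_orderOf.mp F.pgroup) (k : G)
    have hcop : j.Coprime (orderOf (k : G)) := by
      rw [ht]
      exact Nat.Coprime.pow_right t ((Nat.Prime.coprime_iff_not_dvd hp).mpr hpj).symm
    obtain ⟨m, hm⟩ := exists_pow_eq_self_of_coprime hcop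
    have hkc : (k : G) ∈ zpowers c := by
      rw [← hj']
      refine ⟨(m : ℤ), ?_⟩
      show ((k : G) ^ j) ^ (m : ℤ) = k
      rw [zpow_natCast]; exact hm
    intro w hw
    obtain ⟨i, hi⟩ := hk ⟨w, hw⟩
    have hi' : (k : G) ^ i = w := by simpa using congrArg Subtype.val hi
    rw [← hi']; exact (zpowers c).zpow_mem hkc i
  set z₁ := ps x y with hz₁
  have hz₁z : z₁ ∈ zpowers z₀ := Z.comm_mem y hyN
  have hz₁1 : z₁ ≠ 1 := fun h => hcz (Z.fix y hyN h)
  obtain ⟨e, he⟩ := mem_zpowers_of_mem_of_prime hzo hz₁z hz₁1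
  intro w hw
  obtain ⟨b, j, hbj⟩ := mem_N_decomp F Z hyN hcz (ps x w) hw.2
  set u := c ^ b * y ^ (e * j) with hu
  have huC : InC1 N x u := inC1_mul (inC1_zpow hc b) (inC1_zpow hyC _)
  have hpsu : ps x u = ps x w := by
    rw [hu, ps_mul (inC1_zpow hc b) (inC1_zpow hyC _), ps_zpow hc, ps_zpow hyC, hbj, ← hy, ← hz₁,
      zpow_mul]
    have he' : z₁ ^ e = z₀ := he
    rw [he']
  have hwu : w * u⁻¹ ∈ K2 N x y := by
    refine ⟨inC1_mul hw (inC1_inv huC), ?_⟩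
    rw [ps_mul hw (inC1_inv huC), ps_inv huC, hpsu, mul_inv_cancel]
    exact one_mem _
  obtain ⟨m, hm⟩ := hKc _ hwu
  have hm' : c ^ m = w * u⁻¹ := hm
  have hw2 : w = c ^ (m + b) * y ^ (e * j) := by
    have : w = (w * u⁻¹) * u := by group
    rw [this, ← hm', hu, zpow_add]; group
  obtain ⟨a1, ha1⟩ := zpow_eq_pow c (m + b)
  obtain ⟨b1, hb1⟩ := zpow_eq_pow y (e * j)
  exact ⟨a1, b1, by rw [← ha1, ← hb1]; exact hw2⟩

end Cfsg.Agent.Lib.Helper76.Blk
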