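import Cfsg.Agent.S4709
import Cfsg.Agent.S4304
import Cfsg.Agent.Lib.Helper78.DefectZero
import Cfsg.Agent.Lib.Helper82.Codegree
import Cfsg.Agent.Lib.Helper82.Linear
import Cfsg.Agent.Lib.Helper75.SylowPerm

/-!
# Brauer's degree equation for a self-centralizing Sylow subgroup of prime order

Consequences of S4709 (principal block for an abelian Sylow subgroup with Frobenius normalizer),
specialised to `|P| = p`, `C_G(P) = P`, `|N_G(P) : P| = e` a prime with `e (e + 2) ≤ p - 1`.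
-/

set_option autoImplicit false
open Cfsg

namespace Cfsg.Agent.Lib.Helper76

open Subgroup
open scoped commutatorElement

section
variable {G : Type*} [Group G] [Finite G]

/-- If a character is constant `= a` on the nonidentity elements of a subgroup of order `p`, then
its degree is congruent to `a` modulo `p`. -/
theorem charDegree_modEq_of_const {p : ℕ} (P : Subgroup G) (hP : Nat.card P = p) {χ : G → ℂ}
    (hχ : IsCharacter G χ) (a : ℤ) (h : ∀ y ∈ P, y ≠ 1 → χ y = a) :
    (charDegree χ : ℤ) ≡ a [ZMOD p] := by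
  classical
  have := Fintype.ofFinite P
  obtain ⟨n, hn⟩ := Helper20.isCharacter_classInner_nat' (Helper20.isCharacter_restrict hχ P)
    (Helper20.isCharacter_one (G := P))
  unfold classInner at hn
  have hp0 : (p : ℂ) ≠ 0 := by
    have : 0 < Nat.card P := Nat.card_pos
    rw [hP] at this
    exact_mod_cast this.ne'
  have hsum : ∑ y : P, χ y * (starRingEnd ℂ) 1 = (charDegree χ : ℂ) + ((p : ℂ) - 1) * a := by
    rw [← Finset.add_sum_erase Finset.univ _ (Finset.mem_univ (1 : P))]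
    have h1 : ∀ y ∈ Finset.univ.erase (1 : P), χ y * (starRingEnd ℂ) 1 = (a : ℂ) := by
      intro y hy
      rw [map_one, mul_one]
      exact h y y.2 (fun hy1 => (Finset.mem_erase.1 hy).1 (Subtype.ext hy1))
    rw [Finset.sum_congr rfl h1, Finset.sum_const, Finset.card_erase_of_mem (Finset.mem_univ _),
      Finset.card_univ, ← Nat.card_eq_fintype_card, hP, map_one, mul_one, OneMemClass.coe_one,
      Helper82.isChar_one_eq hχ, nsmul_eq_mul]
    have hp1 : 1 ≤ p := by
      have : 0 < Nat.card P := Nat.card_pos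
      omega
    push_cast [Nat.cast_sub hp1]
    ring
  rw [hsum, hP] at hn
  have h2 : (charDegree χ : ℂ) + ((p : ℂ) - 1) * a = p * n := by
    rw [← hn]; field_simp
  have h3 : (charDegree χ : ℤ) + ((p : ℤ) - 1) * a = p * n := by exact_mod_cast h2
  rw [Int.modEq_iff_dvd]
  exact ⟨a - n, by linarith⟩

omit [Finite G] in
theorem commutator_eq_top_of_simple [IsSimpleGroup G] (hnc : ¬ ∀ a b : G, a * b = b * a) :
    commutator G = ⊤ := by
  rcases IsSimpleGroup.eq_bot_or_eq_top_of_normal (commutator G) inferInstance with h | h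
  · exfalso
    apply hnc
    intro a b
    have : ⁅a, b⁆ ∈ commutator G := commutator_mem_commutator (mem_top a) (mem_top b)
    rw [h, mem_bot] at this
    exact commutatorElement_eq_one_iff_mul_comm.1 this
  · exact h

omit [Finite G] in
/-- A nonprincipal irreducible character of a nonabelian simple group is not linear. -/
theorem one_lt_charDegree_of_simple [IsSimpleGroup G] (hnc : ¬ ∀ a b : G, a * b = b * a)
    {χ : G → ℂ} (hχ : IsIrrCharacter G χ) (h1 : χ ≠ fun _ => 1) : 1 < charDegree χ := by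
  by_contra hcon
  have hpos := Helper82.isIrr_charDegree_pos hχ
  have hd : charDegree χ = 1 := by omega
  have hc := Helper82.isIrr_isChar hχ
  have h11 : χ 1 = 1 := by rw [Helper82.isChar_one_eq hc, hd]; simp
  apply h1
  funext z
  exact Helper82.isChar_linear_commutator hc h11 (by rw [commutator_eq_top_of_simple hnc]; trivial)

/-- Brauer's degree equation (inequality version): `|P| = p`, `C_G(P) = P`, `|N_G(P)| = p e`
with `e` prime and `e (e + 2) ≤ p - 1`. -/
theorem brauer_prime {p : ℕ} [Fact p.Prime] (P : Sylow p G) (hP : Nat.card P = p) (e : ℕ)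
    (he : e.Prime)
    (hN : Nat.card (normalizer ((P : Subgroup G) : Set G)) = p * e)
    (hC : Nat.card (centralizer ((P : Subgroup G) : Set G)) = p)
    (hr : e * (e + 2) ≤ p - 1) :
    ∃ (X : Finset (IrrCharacter G)) (a : IrrCharacter G → ℤ) (δ : ℤ) (η χ₁ : IrrCharacter G),
      χ₁ ∈ X ∧ (χ₁ : G → ℂ) = (fun _ => 1) ∧ a χ₁ = 1 ∧ (δ = 1 ∨ δ = -1) ∧
      (∀ χ ∈ X, a χ ≠ 0 ∧ (charDegree (χ : G → ℂ) : ℤ) ≡ a χ [ZMOD p]) ∧
      ∑ χ ∈ X, a χ ^ 2 = e ∧
      ∑ χ ∈ X, a χ * (charDegree (χ : G → ℂ) : ℤ) = δ * (charDegree (η : G → ℂ) : ℤ) := by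
  classical
  have hp : p.Prime := Fact.out
  obtain ⟨M, hM⟩ := Helper78.exists_isPModular hp
  have hcycP : IsCyclic (P : Subgroup G) := isCyclic_of_prime_card hP
  have hab : IsMulCommutative P := hcycP.isMulCommutative
  have hCN : centralizer ((P : Subgroup G) : Set G) ≤ normalizer ((P : Subgroup G) : Set G) :=
    centralizer_le_normalizer _
  have hrel : (centralizer ((P : Subgroup G) : Set G)).relIndex
      (normalizer ((P : Subgroup G) : Set G)) = e := by
    have := relIndex_mul_relIndex ⊥ _ _ bot_le hCN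
    rw [relIndex_bot_left, relIndex_bot_left, hN, hC] at this
    exact Nat.eq_of_mul_eq_mul_left hp.pos this
  have hcyc : ∃ g : G, g ∈ normalizer ((P : Subgroup G) : Set G) ∧
      centralizer ((P : Subgroup G) : Set G) ⊔ zpowers g
        = normalizer ((P : Subgroup G) : Set G) := by
    have hne : ¬ normalizer ((P : Subgroup G) : Set G) ≤ centralizer ((P : Subgroup G) : Set G) := by
      intro h
      have h1 := relIndex_eq_one.2 h
      rw [hrel] at h1
      exact he.one_lt.ne' h1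
    obtain ⟨g, hgN, hgC⟩ := SetLike.not_le_iff_exists.1 hne
    refine ⟨g, hgN, ?_⟩
    have hK1 : centralizer ((P : Subgroup G) : Set G)
        ≤ centralizer ((P : Subgroup G) : Set G) ⊔ zpowers g := le_sup_left
    have hK2 : centralizer ((P : Subgroup G) : Set G) ⊔ zpowers g
        ≤ normalizer ((P : Subgroup G) : Set G) := sup_le hCN (zpowers_le.2 hgN)
    have h := relIndex_mul_relIndex _ _ _ hK1 hK2
    rw [hrel] at h
    rcases (Nat.dvd_prime he).1 ⟨_, h.symm⟩ with h1 | h1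
    · exact absurd (relIndex_eq_one.1 h1 (mem_sup_right (mem_zpowers g))) hgC
    · rw [h1] at h
      have h2 : (centralizer ((P : Subgroup G) : Set G) ⊔ zpowers g).relIndex
          (normalizer ((P : Subgroup G) : Set G)) = 1 :=
        Nat.eq_of_mul_eq_mul_left he.pos (by rw [h, mul_one])
      exact le_antisymm hK2 (relIndex_eq_one.1 h2)
  have hfrob : ∀ y : G, y ∈ (P : Subgroup G) → y ≠ 1 →
      centralizer ({y} : Set G) ⊓ normalizer ((P : Subgroup G) : Set G)
        = centralizer ((P : Subgroup G) : Set G) := by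
    intro y hy hy1
    apply le_antisymm
    · intro z hz
      have hzy := (mem_centralizer_iff.1 hz.1) y rfl
      rw [mem_centralizer_iff]
      intro x hx
      have htop := zpowers_eq_top_of_prime_card (G := (P : Subgroup G)) hP
        (g := ⟨y, hy⟩) (fun h => hy1 (congrArg Subtype.val h))
      have hxm : (⟨x, hx⟩ : (P : Subgroup G)) ∈ zpowers (⟨y, hy⟩ : (P : Subgroup G)) := by
        rw [htop]; trivial
      obtain ⟨k, hk⟩ := mem_zpowers_iff.1 hxm
      have hk' : y ^ k = x := by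
        have := congrArg Subtype.val hk
        simpa using this
      rw [← hk']
      exact ((show Commute y z from hzy).zpow_left k)
    · exact le_inf (centralizer_le (Set.singleton_subset_iff.2 hy)) hCN
  have hm2 : e + 1 < Nat.card P := by
    rw [hP]
    have h2 := he.two_le
    have h3 : e * 2 ≤ e * (e + 2) := Nat.mul_le_mul_left _ (by omega)
    omega
  obtain ⟨s, X, Y, -, -, -, -, hYr, ⟨χ₁, hχ₁X, hχ₁⟩, a, d, δ, ζ, hδ, hX, -, -, -, -, hsq, -,
    hdeg⟩ := Cfsg.Agent.S4709.result p M hM P hab (by rw [hP]; exact hp.one_lt.ne') e he.one_lt hm2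
      hrel hcyc hfrob
  -- values on `P#`
  have hval : ∀ χ ∈ X, ∀ y ∈ (P : Subgroup G), y ≠ 1 → (χ : G → ℂ) y = (a χ : ℂ) := by
    intro χ hχ y hy hy1
    refine (hX χ hχ).2 y y ⟨1, mul_one y, Commute.one_right y, ?_, ?_⟩ hy hy1
    · obtain ⟨k, hk⟩ := (IsPGroup.iff_orderOf.1 P.2) ⟨y, hy⟩
      exact ⟨k, by rw [← hk, Subgroup.orderOf_mk]⟩
    · rw [orderOf_one]; exact hp.one_lt.ne' ∘ Nat.dvd_one.1
  have hnt : Nontrivial (P : Subgroup G) :=
    Finite.one_lt_card_iff_nontrivial.1 (by rw [hP]; exact hp.one_lt)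
  obtain ⟨y, hy⟩ := exists_ne (1 : (P : Subgroup G))
  have ha1 : a χ₁ = 1 := by
    have := hval χ₁ hχ₁X y y.2 (fun h => hy (Subtype.ext h))
    rw [hχ₁] at this
    have h2 : ((a χ₁ : ℤ) : ℂ) = ((1 : ℤ) : ℂ) := by rw [← this]; simp
    exact_mod_cast h2
  rw [finsum_mem_eq_finite_toFinset_sum _ X.toFinite] at hsq
  have hS1 : 1 ≤ ∑ χ ∈ X.toFinite.toFinset, a χ ^ 2 := by
    have := Finset.single_le_sum (f := fun χ => a χ ^ 2) (fun _ _ => sq_nonneg _)
      (X.toFinite.mem_toFinset.2 hχ₁X)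
    simpa [ha1] using this
  have hR : (e : ℤ) + 1 ≤ ((Nat.card P : ℤ) - 1) / (e : ℤ) - 1 := by
    have h1 : (e : ℤ) + 2 ≤ ((Nat.card P : ℤ) - 1) / (e : ℤ) := by
      rw [Int.le_ediv_iff_mul_le (by exact_mod_cast he.pos), hP]
      have hp1 := hp.one_lt
      have : ((e * (e + 2) : ℕ) : ℤ) ≤ ((p - 1 : ℕ) : ℤ) := by exact_mod_cast hr
      rw [Nat.cast_sub hp1.le] at this
      push_cast at this
      linarith
    linarith
  have hd0 : d = 0 := by
    by_contra hd
    have hd2 : 1 ≤ d ^ 2 := by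
      have : 0 < d ^ 2 := by positivity
      omega
    have h1 : (e : ℤ) + 1 ≤ (((Nat.card P : ℤ) - 1) / (e : ℤ) - 1) * d ^ 2 := by
      have he0 : (0 : ℤ) ≤ e := by positivity
      nlinarith
    have h2 : 0 ≤ (d - δ) ^ 2 := sq_nonneg _
    linarith
  have hδ2 : δ ^ 2 = 1 := by rcases hδ with h | h <;> rw [h] <;> norm_num
  have hY : Nonempty Y := by
    have : 0 < Nat.card Y := by
      rw [hYr, hP]
      apply Nat.div_pos _ he.pos
      have h2 := he.two_le
      have h3 : e * 2 ≤ e * (e + 2) := Nat.mul_le_mul_left _ (by omega)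
      omega
    exact (Nat.card_pos_iff.1 this).1
  obtain ⟨η, hη⟩ := hY
  refine ⟨X.toFinite.toFinset, a, δ, η, χ₁, X.toFinite.mem_toFinset.2 hχ₁X, hχ₁, ha1, hδ, ?_, ?_, ?_⟩
  · intro χ hχ
    have hχ' := X.toFinite.mem_toFinset.1 hχ
    exact ⟨(hX χ hχ').1, charDegree_modEq_of_const (P : Subgroup G) hP (Helper82.isIrr_isChar χ.2)
      (a χ) (hval χ hχ')⟩
  · rw [hd0] at hsq
    have : (0 - δ) ^ 2 = 1 := by rw [zero_sub, neg_sq, hδ2]
    rw [this] at hsq
    linarith
  · have h1 := hdeg η hη 1 (by rw [orderOf_one]; exact hp.one_lt.ne' ∘ Nat.dvd_one.1)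
    rw [finsum_mem_eq_finite_toFinset_sum _ X.toFinite, hd0,
      Helper82.isChar_one_eq (Helper82.isIrr_isChar η.2)] at h1
    have h2 : ∑ χ ∈ X.toFinite.toFinset, (a χ : ℂ) * (χ : G → ℂ) 1
        = ((∑ χ ∈ X.toFinite.toFinset, a χ * (charDegree (χ : G → ℂ) : ℤ) : ℤ) : ℂ) := by
      push_cast
      exact Finset.sum_congr rfl fun χ _ => by rw [Helper82.isChar_one_eq (Helper82.isIrr_isChar χ.2)]
    rw [h2] at h1
    have h3 : ((∑ χ ∈ X.toFinite.toFinset, a χ * (charDegree (χ : G → ℂ) : ℤ) : ℤ) : ℂ)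
        = ((δ * (charDegree (η : G → ℂ) : ℤ) : ℤ) : ℂ) := by
      push_cast
      push_cast at h1
      linear_combination h1
    exact_mod_cast h3

theorem card_centralizer_of_simple [IsSimpleGroup G] {p : ℕ} [Fact p.Prime] (P : Sylow p G)
    (hP : Nat.card P = p) (e : ℕ) (he : e.Prime)
    (hN : Nat.card (normalizer ((P : Subgroup G) : Set G)) = p * e) :
    Nat.card (centralizer ((P : Subgroup G) : Set G)) = p := by
  have hp : p.Prime := Fact.out
  have hcycP : IsCyclic (P : Subgroup G) := isCyclic_of_prime_card hP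
  have hPC : (P : Subgroup G) ≤ centralizer ((P : Subgroup G) : Set G) := by
    have := hcycP.isMulCommutative
    intro x hx
    rw [mem_centralizer_iff]
    intro y hy
    exact congrArg Subtype.val (this.is_comm.comm ⟨y, hy⟩ ⟨x, hx⟩)
  have hCN : centralizer ((P : Subgroup G) : Set G) ≤ normalizer ((P : Subgroup G) : Set G) :=
    centralizer_le_normalizer _
  have h1 := relIndex_mul_relIndex ⊥ _ _ bot_le hCN
  rw [relIndex_bot_left, relIndex_bot_left, hN] at h1
  obtain ⟨c, hc⟩ := card_dvd_of_le hPC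
  rw [hP] at hc
  rw [hc, mul_assoc] at h1
  have h2 := Nat.eq_of_mul_eq_mul_left hp.pos h1
  rcases (Nat.dvd_prime he).1 ⟨_, h2.symm⟩ with h3 | h3
  · rw [hc, h3, mul_one]
  · exfalso
    rw [h3] at h2
    have h4 : (centralizer ((P : Subgroup G) : Set G)).relIndex
        (normalizer ((P : Subgroup G) : Set G)) = 1 :=
      Nat.eq_of_mul_eq_mul_left he.pos (by rw [h2, mul_one])
    have h5 := Cfsg.Agent.S4304.card_eq_of_simple_of_normalizer_le_centralizer P
      (relIndex_eq_one.1 h4) (by rw [hP]; exact hp.one_lt.ne')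
    have h6 := Nat.le_of_dvd Nat.card_pos
      (card_subgroup_dvd_card (normalizer ((P : Subgroup G) : Set G)))
    rw [hN, h5, hP] at h6
    have := he.two_le
    have := hp.pos
    nlinarith

theorem not_comm_of_card_centralizer {p : ℕ} [Fact p.Prime] (P : Sylow p G) (e : ℕ) (he : e.Prime)
    (hN : Nat.card (normalizer ((P : Subgroup G) : Set G)) = p * e)
    (hC : Nat.card (centralizer ((P : Subgroup G) : Set G)) = p) :
    ¬ ∀ a b : G, a * b = b * a := by
  intro h
  have hp : p.Prime := Fact.out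
  have h1 : normalizer ((P : Subgroup G) : Set G) ≤ centralizer ((P : Subgroup G) : Set G) := by
    intro x _
    rw [mem_centralizer_iff]
    intro y _
    exact h y x
  have h2 := Nat.le_of_dvd Nat.card_pos (card_dvd_of_le h1)
  rw [hN, hC] at h2
  have := he.two_le
  have := hp.pos
  nlinarith

theorem int_eq_one_or_of_sq {x : ℤ} (h : x ^ 2 = 1) : x = 1 ∨ x = -1 := by
  have h1 : (x - 1) * (x + 1) = 0 := by nlinarith
  rcases mul_eq_zero.1 h1 with h2 | h2
  · left; omega
  · right; omega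

/-- `e = 2`: the degree equation `1 + a x = δ z`. -/
theorem simple_brauer_two [IsSimpleGroup G] {p : ℕ} [Fact p.Prime] (P : Sylow p G)
    (hP : Nat.card P = p)
    (hN : Nat.card (normalizer ((P : Subgroup G) : Set G)) = p * 2) (hr : 9 ≤ p) :
    ∃ (x z : ℕ) (a δ : ℤ), (a = 1 ∨ a = -1) ∧ (δ = 1 ∨ δ = -1) ∧ 1 < x ∧ x ∣ Nat.card G ∧
      z ∣ Nat.card G ∧ (x : ℤ) ≡ a [ZMOD p] ∧ 1 + a * x = δ * z := by
  classical
  have hC := card_centralizer_of_simple P hP 2 Nat.prime_two hN
  have hnc := not_comm_of_card_centralizer P 2 Nat.prime_two hN hC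
  obtain ⟨X, a, δ, η, χ₁, hχ₁X, hχ₁, ha1, hδ, hX, hsq, hdeg⟩ :=
    brauer_prime P hP 2 Nat.prime_two hN hC (by omega)
  rw [← Finset.add_sum_erase X _ hχ₁X, ha1] at hsq hdeg
  have hd1 : charDegree (χ₁ : G → ℂ) = 1 := by
    rw [hχ₁]; simp [charDegree]
  rw [hd1] at hdeg
  have hsq' : ∑ χ ∈ X.erase χ₁, a χ ^ 2 = 1 := by push_cast at hsq; linarith
  have hge : ∀ χ ∈ X.erase χ₁, 1 ≤ a χ ^ 2 := by
    intro χ hχ
    have : 0 < a χ ^ 2 := by
      have := (hX χ (Finset.mem_of_mem_erase hχ)).1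
      positivity
    omega
  have hcard := Finset.card_nsmul_le_sum _ _ _ hge
  rw [hsq'] at hcard
  have hcard1 : (X.erase χ₁).card = 1 := by
    have h1 : (X.erase χ₁).card ≤ 1 := by simpa using hcard
    have h2 : (X.erase χ₁).card ≠ 0 := by
      intro h0
      rw [Finset.card_eq_zero.1 h0] at hsq'
      simp at hsq'
    omega
  obtain ⟨ψ, hψ⟩ := Finset.card_eq_one.1 hcard1
  rw [hψ, Finset.sum_singleton] at hsq' hdeg
  have hψm : ψ ∈ X.erase χ₁ := by rw [hψ]; exact Finset.mem_singleton_self _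
  have hψne : (ψ : G → ℂ) ≠ fun _ => 1 := by
    intro h
    exact (Finset.mem_erase.1 hψm).1 (Subtype.ext (h.trans hχ₁.symm))
  refine ⟨charDegree (ψ : G → ℂ), charDegree (η : G → ℂ), a ψ, δ, int_eq_one_or_of_sq hsq', hδ,
    one_lt_charDegree_of_simple hnc ψ.2 hψne, Helper82.isIrr_charDegree_dvd_card ψ.2,
    Helper82.isIrr_charDegree_dvd_card η.2, (hX ψ (Finset.mem_of_mem_erase hψm)).2, ?_⟩
  rw [← hdeg]; simp

/-- `e = 3`: the degree equation `1 + a x + b y = δ z`. -/
theorem simple_brauer_three [IsSimpleGroup G] {p : ℕ} [Fact p.Prime] (P : Sylow p G)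
    (hP : Nat.card P = p)
    (hN : Nat.card (normalizer ((P : Subgroup G) : Set G)) = p * 3) (hr : 16 ≤ p) :
    ∃ (x y z : ℕ) (a b δ : ℤ), (a = 1 ∨ a = -1) ∧ (b = 1 ∨ b = -1) ∧ (δ = 1 ∨ δ = -1) ∧
      1 < x ∧ x ∣ Nat.card G ∧ 1 < y ∧ y ∣ Nat.card G ∧
      z ∣ Nat.card G ∧ (x : ℤ) ≡ a [ZMOD p] ∧ (y : ℤ) ≡ b [ZMOD p] ∧
      1 + a * x + b * y = δ * z := by
  classical
  have hC := card_centralizer_of_simple P hP 3 Nat.prime_three hN
  have hnc := not_comm_of_card_centralizer P 3 Nat.prime_three hN hC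
  obtain ⟨X, a, δ, η, χ₁, hχ₁X, hχ₁, ha1, hδ, hX, hsq, hdeg⟩ :=
    brauer_prime P hP 3 Nat.prime_three hN hC (by omega)
  rw [← Finset.add_sum_erase X _ hχ₁X, ha1] at hsq hdeg
  have hd1 : charDegree (χ₁ : G → ℂ) = 1 := by
    rw [hχ₁]; simp [charDegree]
  rw [hd1] at hdeg
  have hsq' : ∑ χ ∈ X.erase χ₁, a χ ^ 2 = 2 := by push_cast at hsq; linarith
  have hge : ∀ χ ∈ X.erase χ₁, 1 ≤ a χ ^ 2 := by
    intro χ hχ
    have : 0 < a χ ^ 2 := by
      have := (hX χ (Finset.mem_of_mem_erase hχ)).1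
      positivity
    omega
  have hcard := Finset.card_nsmul_le_sum _ _ _ hge
  rw [hsq'] at hcard
  have h1 : (X.erase χ₁).card ≤ 2 := by
    have : ((X.erase χ₁).card : ℤ) ≤ 2 := by simpa using hcard
    exact_mod_cast this
  have h2 : (X.erase χ₁).card ≠ 0 := by
    intro h0
    rw [Finset.card_eq_zero.1 h0] at hsq'
    simp at hsq'
  have h3 : (X.erase χ₁).card ≠ 1 := by
    intro h0
    obtain ⟨ψ, hψ⟩ := Finset.card_eq_one.1 h0
    rw [hψ, Finset.sum_singleton] at hsq'
    have h4 : a ψ ≤ 1 := by nlinarith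
    have h5 : -1 ≤ a ψ := by nlinarith
    have h6 : a ψ = -1 ∨ a ψ = 0 ∨ a ψ = 1 := by omega
    rcases h6 with h | h | h <;> rw [h] at hsq' <;> norm_num at hsq'
  have hcard2 : (X.erase χ₁).card = 2 := by omega
  obtain ⟨ψ, φ, hne, hψ⟩ := Finset.card_eq_two.1 hcard2
  rw [hψ, Finset.sum_pair hne] at hsq' hdeg
  have hψm : ψ ∈ X.erase χ₁ := by rw [hψ]; simp
  have hφm : φ ∈ X.erase χ₁ := by rw [hψ]; simp
  have hψne : (ψ : G → ℂ) ≠ fun _ => 1 := by
    intro h
    exact (Finset.mem_erase.1 hψm).1 (Subtype.ext (h.trans hχ₁.symm))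
  have hφne : (φ : G → ℂ) ≠ fun _ => 1 := by
    intro h
    exact (Finset.mem_erase.1 hφm).1 (Subtype.ext (h.trans hχ₁.symm))
  have g1 := hge ψ hψm
  have g2 := hge φ hφm
  refine ⟨charDegree (ψ : G → ℂ), charDegree (φ : G → ℂ), charDegree (η : G → ℂ), a ψ, a φ, δ,
    int_eq_one_or_of_sq (by omega), int_eq_one_or_of_sq (by omega), hδ,
    one_lt_charDegree_of_simple hnc ψ.2 hψne, Helper82.isIrr_charDegree_dvd_card ψ.2,
    one_lt_charDegree_of_simple hnc φ.2 hφne, Helper82.isIrr_charDegree_dvd_card φ.2,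
    Helper82.isIrr_charDegree_dvd_card η.2, (hX ψ (Finset.mem_of_mem_erase hψm)).2,
    (hX φ (Finset.mem_of_mem_erase hφm)).2, ?_⟩
  rw [← hdeg]; simp [add_assoc]

/-- a number dividing `p * m` and congruent to `±1` modulo `p` divides `m`. -/
theorem dvd_of_modEq_pm {p m x : ℕ} (hp : p.Prime) (a : ℤ) (ha : a = 1 ∨ a = -1)
    (hx : x ∣ p * m) (h : (x : ℤ) ≡ a [ZMOD p]) : x ∣ m := by
  apply Nat.Coprime.dvd_of_dvd_mul_left _ hx
  rw [Nat.coprime_comm, Nat.Prime.coprime_iff_not_dvd hp]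
  intro hd
  have h1 : (p : ℤ) ∣ x := by exact_mod_cast hd
  have h2 : (p : ℤ) ∣ a - x := Int.modEq_iff_dvd.1 h
  have h3 : (p : ℤ) ∣ a := by
    have := dvd_add h2 h1
    simpa using this
  have h4 : (p : ℤ) ∣ 1 := by
    rcases ha with rfl | rfl
    · exact h3
    · simpa using h3
  have h5 : p ∣ 1 := by exact_mod_cast h4
  exact hp.one_lt.ne' (Nat.dvd_one.1 h5)

/-- Sylow bookkeeping: in a simple group of order `p * m` (`p ∤ m`, `1 < m`) in which `k` is the
only admissible number of Sylow `p`-subgroups, `|P| = p` and `|N_G(P)| * k = p * m`. -/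
theorem sylow_data_of_simple [IsSimpleGroup G] {p : ℕ} [Fact p.Prime] (P : Sylow p G) (m k : ℕ)
    (hG : Nat.card G = p * m) (hpm : ¬ p ∣ m) (hm : 1 < m)
    (hk : ∀ x, x ∣ m → x % p = 1 → 1 < x → x = k) :
    Nat.card P = p ∧ Nat.card (normalizer ((P : Subgroup G) : Set G)) * k = p * m := by
  have hp : p.Prime := Fact.out
  have hP : Nat.card P = p := Cfsg.Agent.S4304.sylow_card_eq_prime P (by rw [hG]; exact ⟨m, rfl⟩)
    (by
      rw [hG, pow_two]
      intro h
      exact hpm (Nat.dvd_of_mul_dvd_mul_left hp.pos h))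
  refine ⟨hP, ?_⟩
  have hidx : (P : Subgroup G).index = m := by
    have := (P : Subgroup G).card_mul_index
    rw [hP, hG] at this
    exact Nat.eq_of_mul_eq_mul_left hp.pos this
  have hn1 : 1 < Nat.card (Sylow p G) :=
    Helper75.one_lt_card_sylow_of_simple P (by rw [hP]; exact hp.one_lt.ne') (by
      rw [hP, hG]
      intro h
      have : p * 1 = p * m := by rw [mul_one]; exact h
      have := Nat.eq_of_mul_eq_mul_left hp.pos this
      omega)
  have hn : Nat.card (Sylow p G) = k := by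
    apply hk _ (hidx ▸ P.card_dvd_index) _ hn1
    have := card_sylow_modEq_one p G
    unfold Nat.ModEq at this
    rw [this, Nat.mod_eq_of_lt hp.one_lt]
  have h1 := (normalizer ((P : Subgroup G) : Set G)).card_mul_index
  rw [← Helper75.card_sylow_eq_index P, hn, hG] at h1
  exact h1

end

end Cfsg.Agent.Lib.Helper76
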