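import Mathlib
import Cfsg.Agent.Lib.Helper76.SuperChain
import Cfsg.Agent.Lib.Helper56.HSub2

set_option autoImplicit false

namespace Cfsg.Agent.Lib.Helper76

open Subgroup

/-- The smallest normal subgroup with abelian quotient of exponent dividing `p - 1`. -/
def resid (p : ℕ) (G : Type*) [Group G] : Subgroup G :=
  normalClosure ({g | ∃ a b : G, g = a * b * a⁻¹ * b⁻¹} ∪ {g | ∃ a : G, g = a ^ (p - 1)})

instance resid_normal (p : ℕ) (G : Type*) [Group G] : (resid p G).Normal :=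
  normalClosure_normal

theorem comm_mem_resid (p : ℕ) {G : Type*} [Group G] (a b : G) : a * b * a⁻¹ * b⁻¹ ∈ resid p G :=
  subset_normalClosure (Or.inl ⟨a, b, rfl⟩)

theorem pow_mem_resid (p : ℕ) {G : Type*} [Group G] (a : G) : a ^ (p - 1) ∈ resid p G :=
  subset_normalClosure (Or.inr ⟨a, rfl⟩)

theorem resid_le {p : ℕ} {G : Type*} [Group G] {K : Subgroup G} [K.Normal]
    (h1 : ∀ a b : G, a * b * a⁻¹ * b⁻¹ ∈ K) (h2 : ∀ a : G, a ^ (p - 1) ∈ K) : resid p G ≤ K :=
  normalClosure_le_normal (by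
    rintro g (⟨a, b, rfl⟩ | ⟨a, rfl⟩)
    exacts [h1 a b, h2 a])

theorem map_mem_resid {p : ℕ} {G G' : Type*} [Group G] [Group G'] (f : G →* G') {y : G}
    (hy : y ∈ resid p G) : f y ∈ resid p G' := by
  have : resid p G ≤ (resid p G').comap f :=
    resid_le (fun a b => by
      rw [mem_comap]; simpa using comm_mem_resid p (f a) (f b))
      (fun a => by rw [mem_comap]; simpa using pow_mem_resid p (f a))
  exact this hy

theorem conjNormal_pow_eq_one {p : ℕ} [Fact p.Prime] {Γ : Type*} [Group Γ] (C : Subgroup Γ)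
    [C.Normal] [Finite C] (hc : IsCyclic C) {m : ℕ} (hm : 1 ≤ m) (hC : Nat.card C = p ^ m) (y : Γ)
    (hy : y ∈ resid p Γ) : (MulAut.conjNormal y : MulAut C) ^ (p ^ (m - 1)) = 1 := by
  have hp : p.Prime := Fact.out
  let e := IsCyclic.mulAutMulEquiv C
  let ψ : Γ →* (ZMod (Nat.card C))ˣ := e.toMonoidHom.comp MulAut.conjNormal
  let K := ((powMonoidHom (p ^ (m - 1))).comp ψ).ker
  have hle : resid p Γ ≤ K := by
    apply resid_le
    · intro a b
      show (ψ (a * b * a⁻¹ * b⁻¹)) ^ (p ^ (m - 1)) = 1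
      have : ψ (a * b * a⁻¹ * b⁻¹) = 1 := by
        rw [map_mul, map_mul, map_mul, map_inv, map_inv, mul_comm (ψ a) (ψ b)]
        group
      rw [this, one_pow]
    · intro a
      show (ψ (a ^ (p - 1))) ^ (p ^ (m - 1)) = 1
      have h1 : (MulAut.conjNormal a : MulAut C) ^ ((p - 1) * p ^ (m - 1)) = 1 := by
        have h2 : Nat.card (MulAut C) = p ^ (m - 1) * (p - 1) := by
          rw [hc.card_mulAut, hC, Nat.totient_prime_pow hp (by omega)]
        rw [mul_comm, ← h2]
        exact pow_card_eq_one'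
      rw [map_pow, ← pow_mul]
      show (e (MulAut.conjNormal a)) ^ ((p - 1) * p ^ (m - 1)) = 1
      rw [← map_pow, h1, map_one]
  have h3 : (ψ y) ^ (p ^ (m - 1)) = 1 := hle hy
  apply e.injective
  rw [map_pow, map_one]
  exact h3

/-- `resid p G` acts trivially on normal sections of order `p`. -/
theorem resid_section {p : ℕ} [Fact p.Prime] {G : Type*} [Group G] [Finite G] (D₀ D₁ : Subgroup G)
    (h0 : D₀.Normal) (h1 : D₁.Normal) (hidx : D₀.relIndex D₁ = p) (y : G)
    (hy : y ∈ resid p G) (u : G) (hu : u ∈ D₁) : y * u * y⁻¹ * u⁻¹ ∈ D₀ := by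
  set π := QuotientGroup.mk' D₀ with hπ
  have hsurj : Function.Surjective π := QuotientGroup.mk'_surjective D₀
  have hCn : (D₁.map π).Normal := h1.map π hsurj
  have hcard : Nat.card (D₁.map π) = p ^ 1 := by
    rw [← Subgroup.relIndex_ker, hπ, QuotientGroup.ker_mk', hidx, pow_one]
  have hcyc : IsCyclic (D₁.map π) := isCyclic_of_prime_card (p := p) (by rw [hcard, pow_one])
  have h2 := conjNormal_pow_eq_one (D₁.map π) hcyc le_rfl hcard (π y) (map_mem_resid π hy)
  simp only [le_refl, Nat.sub_self, pow_zero, pow_one] at h2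
  have h3 := congrArg (fun α : MulAut (D₁.map π) => ((α ⟨π u, u, hu, rfl⟩ : D₁.map π) : G ⧸ D₀)) h2
  have h4 : π y * π u * (π y)⁻¹ = π u := h3
  have h5 : π (y * u * y⁻¹ * u⁻¹) = 1 := by
    rw [map_mul, map_mul, map_mul, map_inv, map_inv, h4, mul_inv_cancel]
  rwa [hπ, QuotientGroup.mk'_apply, QuotientGroup.eq_one_iff] at h5

/-- `p'`-elements of `resid p G` centralize cyclic normal `p`-subgroups. -/
theorem resid_cyclic {p : ℕ} [Fact p.Prime] {G : Type*} [Group G] [Finite G] (C : Subgroup G)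
    (hCn : C.Normal) (hc : IsCyclic C) {m : ℕ} (hm : 1 ≤ m) (hC : Nat.card C = p ^ m) (y : G)
    (hy : y ∈ resid p G) (hyp : (orderOf y).Coprime p) : y ∈ centralizer (C : Set G) := by
  have h2 := conjNormal_pow_eq_one C hc hm hC y hy
  have h3 : (MulAut.conjNormal y : MulAut C) ^ (orderOf y) = 1 := by
    rw [← map_pow, pow_orderOf_eq_one, map_one]
  have h4 : (MulAut.conjNormal y : MulAut C) = 1 := by
    have hcop : Nat.Coprime (orderOf y) (p ^ (m - 1)) := Nat.Coprime.pow_right _ hyp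
    have := orderOf_dvd_of_pow_eq_one h2
    have h5 := orderOf_dvd_of_pow_eq_one h3
    exact orderOf_eq_one_iff.mp (Nat.eq_one_of_dvd_coprimes hcop h5 this)
  rw [mem_centralizer_iff]
  intro c hcC
  have h5 := congrArg (fun α : MulAut C => ((α ⟨c, hcC⟩ : C) : G)) h4
  have h6 : y * c * y⁻¹ = c := h5
  calc c * y = y * c * y⁻¹ * y := by rw [h6]
    _ = y * c := by group

/-- If all subgroups of order `p ^ d` (and `4` if `p ^ d = 2`) of the normal `p`-subgroup `Q` are
normal in `G`, then `resid p G` acts on `Q` as a `p`-group. -/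
theorem TH_of_normal_card {p : ℕ} [Fact p.Prime] {G : Type*} [Group G] [Finite G] (Q : Subgroup G)
    (hQn : Q.Normal) (hQp : IsPGroup p Q) (d : ℕ) (hd : 1 ≤ d) (hlt : p ^ d < Nat.card Q)
    (hF : ∀ F : Subgroup G, F ≤ Q → (Nat.card F = p ^ d ∨ (p ^ d = 2 ∧ Nat.card F = 4)) → F.Normal) :
    TH p Q (resid p G) where
  hQn := hQn
  hQp := hQp
  hRn := inferInstance
  hcomm := comm_mem_resid p
  hpow := pow_mem_resid p
  hact := by
    intro y hy
    have hp : p.Prime := Fact.out
    obtain ⟨k, m, hm, hkm⟩ := Nat.exists_eq_pow_mul_and_not_dvd (orderOf_pos y).ne' p hp.ne_one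
    refine ⟨k, ?_⟩
    have hord : orderOf (y ^ p ^ k) = m := by
      rw [orderOf_pow_of_dvd (pow_pos hp.pos k).ne' (hkm ▸ Dvd.intro _ rfl), hkm,
        Nat.mul_div_cancel_left _ (pow_pos hp.pos k)]
    have hcop : (orderOf (y ^ p ^ k)).Coprime p := by
      rw [hord]
      exact ((Nat.Prime.coprime_iff_not_dvd hp).mpr hm).symm
    have hyR : y ^ p ^ k ∈ resid p G := pow_mem hy _
    have hnorm : ∀ F : Subgroup G, F.Normal → ∀ g : G, g ∈ normalizer (F : Set G) := by
      intro F hFn g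
      rw [normalizer_eq_top_iff.mpr hFn]; exact mem_top g
    apply Cfsg.Agent.Lib.Helper56.mem_centralizer_of_normalizes_card Q hQp d hd hlt _
      (hnorm Q hQn _) hcop
    · intro E hEQ hcE
      exact hnorm E (hF E hEQ (Or.inl hcE)) _
    · intro D₀ E M hEQ hMQ hD₀ hcD₀ hcE hcM hcEM u hu
      have hEn := hF E hEQ (Or.inl hcE)
      have hMn := hF M hMQ (Or.inl hcM)
      have hD₀n := hF D₀ (hD₀.trans (sup_le hEQ hMQ)) (Or.inl hcD₀)
      have hEMn : (E ⊔ M).Normal := inferInstance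
      apply resid_section D₀ (E ⊔ M) hD₀n hEMn _ _ hyR u hu
      have hmul : Nat.card D₀ * D₀.relIndex (E ⊔ M) = Nat.card (E ⊔ M : Subgroup G) := by
        rw [← relIndex_bot_left, ← relIndex_bot_left]
        exact relIndex_mul_relIndex ⊥ D₀ (E ⊔ M) bot_le hD₀
      rw [hcD₀, hcEM, pow_succ] at hmul
      exact Nat.eq_of_mul_eq_mul_left (pow_pos hp.pos d) hmul
    · intro C hCQ hCc hcC
      have hCn := hF C hCQ hcC
      rcases hcC with hcC | ⟨h2, hcC⟩
      · exact resid_cyclic C hCn hCc hd hcC _ hyR hcop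
      · have hp2 : p = 2 := by
          have : p ∣ 2 := h2 ▸ dvd_pow_self p (by omega)
          exact (Nat.prime_dvd_prime_iff_eq hp Nat.prime_two).mp this
        exact resid_cyclic C hCn hCc (m := 2) (by norm_num) (by rw [hcC, hp2]; norm_num) _ hyR hcop

end Cfsg.Agent.Lib.Helper76
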